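import Cfsg.Agent.H616.M23.Fin
import Cfsg.Agent.H717.M23.SumsHN

/-!
# (M,23) of S4929, [BETA]: the values, final form (helper616)

`exists_b` : the only hypotheses are the class table of `HN` (helper651) and the values in the monomial group (helper136).
-/

set_option autoImplicit false
set_option maxRecDepth 100000

namespace Cfsg.Agent.H616.M23

open Cfsg Cfsg.Agent.MonsterX.InstData Cfsg.Agent.H651.HNF
open Cfsg.Agent.H875.M23.TraceChar (chi)

theorem finite_HN : Finite Spor.HN := Nat.finite_of_card_ne_zero (by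
  rw [Cfsg.Agent.KFacts.HN.Classes.card_HN]
  norm_num)

/-- **The values of `chi` on the section of `5A`**, in the form of `H592.HN.final`. -/
theorem exists_b {u : ↥M.G} {T : Subgroup ↥M.G} (hu : orderOf u = 5)
    (hle : T ≤ Subgroup.centralizer ({u} : Set ↥M.G))
    (hsplit : ∀ c ∈ Subgroup.centralizer ({u} : Set ↥M.G), ∃ i : ℕ, ∃ t ∈ T, c = u ^ i * t)
    (hVu : chi u = 133) (e : Spor.HN ≃* T) {ty : Spor.HN → Ty} (hT : Table Spor.HN ty)
    (W : ∀ b : Spor.HN → ℤ, (∀ h, chi (u * ((e h : T) : ↥M.G)) = b h) → Words b) :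
    ∃ b : Spor.HN → ℤ, (∀ h, chi (u * ((e h : T) : ↥M.G)) = b h) ∧ ∀ g, ty g ≠ .sing → b g = (ty g).b := by
  have := finite_HN
  obtain ⟨b, hb, hbt⟩ := exists_bt_chi hu hle hsplit hVu e
  exact ⟨b, hb, fun g hg => val hT hbt (W b hb) (H717.M23.SumsHN.sums hT hbt) hg⟩

/-- the same with helper66's structure -/
theorem exists_b_dp {u : ↥M.G} {T : Subgroup ↥M.G} (h : H66.M23.Loc.DP Spor.HN 5 u T) (hVu : chi u = 133)
    (e : Spor.HN ≃* T) {ty : Spor.HN → Ty} (hT : Table Spor.HN ty)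
    (W : ∀ b : Spor.HN → ℤ, (∀ h, chi (u * ((e h : T) : ↥M.G)) = b h) → Words b) :
    ∃ b : Spor.HN → ℤ, (∀ h, chi (u * ((e h : T) : ↥M.G)) = b h) ∧ ∀ g, ty g ≠ .sing → b g = (ty g).b :=
  exists_b h.ord h.le h.split hVu e hT W

end Cfsg.Agent.H616.M23
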