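import Cfsg.Agent.H616.M23.LocalXu
import Cfsg.Agent.H616.M23.Fin2

/-!
# (M,23) of S4929: the element of the class 5A with the values in the monomial group (helper616)

`base` : the local data of helper66 at the element `W [37, 37]` of helper136.
-/

set_option autoImplicit false
set_option maxRecDepth 100000

namespace Cfsg.Agent.H616.M23

open Cfsg
open Cfsg.Agent.H875.M23.TraceChar (chi)
open Cfsg.Agent.BpSpor.MBigModel (MG)

/-- **The local data of `5A` with the values in the monomial group.** -/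
theorem base : ∃ (u : MG) (C T : Subgroup MG) (t y : T), H66.M23.Five.Local u C T t y ∧ chi u = 133 ∧
    ∀ (e : Spor.HN ≃* T) (b : Spor.HN → ℤ), (∀ h, chi (u * ((e h : T) : MG)) = b h) → Words b := by
  obtain ⟨T, hT⟩ := H136.M23.BWords.exists_dp_xu
  obtain ⟨C, t, y, L⟩ := LocalXu.local_xu hT
  exact ⟨_, C, T, t, y, L, H136.M23.BWords.chi_xu, H136.M23.BZ.words hT⟩

/-- **[BETA]**, complete up to the class table of `HN`: the local data and the values of `chi`. -/
theorem base_values {ty : Spor.HN → H651.HNF.Ty} (hT : H651.HNF.Table Spor.HN ty) :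
    ∃ (u : MG) (C T : Subgroup MG) (t y : T), H66.M23.Five.Local u C T t y ∧ chi u = 133 ∧
    ∃ (e : Spor.HN ≃* T) (b : Spor.HN → ℤ), (∀ h, chi (u * ((e h : T) : MG)) = b h) ∧
      ∀ g, ty g ≠ .sing → b g = (ty g).b := by
  obtain ⟨T, hdp⟩ := H136.M23.BWords.exists_dp_xu
  obtain ⟨C, t, y, L⟩ := LocalXu.local_xu hdp
  obtain ⟨e⟩ := hdp.iso
  obtain ⟨b, hb, hv⟩ := exists_b_dp hdp H136.M23.BWords.chi_xu e.symm hT (H136.M23.BZ.words hdp e.symm)
  exact ⟨_, C, T, t, y, L, H136.M23.BWords.chi_xu, e.symm, b, hb, hv⟩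

end Cfsg.Agent.H616.M23
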