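import Cfsg.Agent.H616.M23.Bt

/-!
# (M,23) of S4929, [BETA]: deductions from `Bt b` (helper616)
-/

set_option autoImplicit false

open Subgroup

namespace Cfsg.Agent.H616.M23

variable {H : Type} [Group H] [Finite H] {b : H → ℤ}

theorem Bt.le (hb : Bt b) {h : H} (h5 : ¬ 5 ∣ orderOf h) {C : ℕ} (hC : Nat.card (centralizer ({h} : Set H)) ≤ C) :
    (b h ^ 2 + b (h * h) - 2 - 2 * b h) ^ 2 ≤ 8 * (5 * (C : ℤ) - 1 - b h ^ 2) := by
  have h1 := hb.bound h h5
  have h2 : (Nat.card (centralizer ({h} : Set H)) : ℤ) ≤ C := by exact_mod_cast hC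
  linarith

theorem range {v w C m : ℤ} (h : (v ^ 2 + w - 2 - 2 * v) ^ 2 ≤ 8 * (5 * C - 1 - v ^ 2)) (hm : 5 * C - 1 < m ^ 2)
    (hm0 : 0 ≤ m) : -m < v ∧ v < m := by
  have h1 : v ^ 2 < m ^ 2 := by nlinarith [sq_nonneg (v ^ 2 + w - 2 - 2 * v)]
  exact abs_lt.1 (abs_lt_of_sq_lt_sq h1 hm0)

/-- `b (h h) = b h` for elements of odd order -/
theorem Bt.sq_odd (hb : Bt b) {h : H} (h5 : ¬ 5 ∣ orderOf h) (h2 : ¬ 2 ∣ orderOf h) : b (h * h) = b h := by
  rw [← pow_two]
  exact hb.pow h 2 h5 ((Nat.Prime.coprime_iff_not_dvd Nat.prime_two).2 h2)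

theorem Bt.inv (hb : Bt b) {h : H} (h5 : ¬ 5 ∣ orderOf h) : b h⁻¹ = b h := by
  have h1 : 0 < orderOf h := orderOf_pos h
  have h2 : h⁻¹ = h ^ (orderOf h - 1) := by
    rw [inv_eq_iff_mul_eq_one, ← pow_succ', Nat.sub_add_cancel h1, pow_orderOf_eq_one]
  rw [h2]
  refine hb.pow h _ h5 ?_
  rw [Nat.coprime_comm]
  rcases Nat.exists_eq_succ_of_ne_zero h1.ne' with ⟨n, hn⟩
  rw [hn, Nat.succ_sub_one, Nat.succ_eq_add_one]
  simp

/-! ### the primes 19, 11, 7 -/

theorem Bt.v19 (hb : Bt b) {h : H} (ho : orderOf h = 19) (hC : Nat.card (centralizer ({h} : Set H)) ≤ 19) :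
    b h = 0 := by
  have h5 : ¬ 5 ∣ orderOf h := by rw [ho]; norm_num
  have h1 := hb.congr h 19 (by norm_num) (by norm_num) h5
  rw [← ho, pow_orderOf_eq_one, hb.one, ho] at h1
  have h2 := hb.le h5 hC
  rw [hb.sq_odd h5 (by rw [ho]; norm_num)] at h2
  obtain ⟨h3, h4⟩ := range h2 (m := 10) (by norm_num) (by norm_num)
  generalize b h = v at *
  omega

theorem Bt.v11 (hb : Bt b) {h : H} (ho : orderOf h = 11) (hC : Nat.card (centralizer ({h} : Set H)) ≤ 22) :
    b h = 1 := by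
  have h5 : ¬ 5 ∣ orderOf h := by rw [ho]; norm_num
  have h1 := hb.congr h 11 (by norm_num) (by norm_num) h5
  rw [← ho, pow_orderOf_eq_one, hb.one, ho] at h1
  have h2 := hb.le h5 hC
  rw [hb.sq_odd h5 (by rw [ho]; norm_num)] at h2
  obtain ⟨h3, h4⟩ := range h2 (m := 11) (by norm_num) (by norm_num)
  generalize b h = v at *
  have h6 : v = 1 ∨ v = -10 := by omega
  rcases h6 with rfl | rfl
  · rfl
  · norm_num at h2

theorem Bt.v22 (hb : Bt b) {h : H} (ho : orderOf h = 22) (hC : Nat.card (centralizer ({h} : Set H)) ≤ 22)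
    (hA : b (h ^ 11) = 21) (h11 : b (h * h) = 1) : b h = -1 := by
  have h5 : ¬ 5 ∣ orderOf h := by rw [ho]; norm_num
  have h1 := hb.congr h 11 (by norm_num) (by norm_num) h5
  rw [hA] at h1
  have h2 := hb.le h5 hC
  rw [h11] at h2
  obtain ⟨h3, h4⟩ := range h2 (m := 11) (by norm_num) (by norm_num)
  generalize b h = v at *
  have h6 : v = -1 ∨ v = 10 := by omega
  rcases h6 with rfl | rfl
  · rfl
  · norm_num at h2

theorem Bt.v21 (hb : Bt b) {h : H} (ho : orderOf h = 21) (hC : Nat.card (centralizer ({h} : Set H)) ≤ 21)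
    (hA : b (h ^ 7) = 7) : b h = 0 := by
  have h5 : ¬ 5 ∣ orderOf h := by rw [ho]; norm_num
  have h1 := hb.congr h 7 (by norm_num) (by norm_num) h5
  rw [hA] at h1
  have h2 := hb.le h5 hC
  rw [hb.sq_odd h5 (by rw [ho]; norm_num)] at h2
  obtain ⟨h3, h4⟩ := range h2 (m := 11) (by norm_num) (by norm_num)
  generalize b h = v at *
  have h6 : v = 0 ∨ v = 7 ∨ v = -7 := by omega
  rcases h6 with rfl | rfl | rfl
  · rfl
  · norm_num at h2
  · norm_num at h2

theorem Bt.v7 (hb : Bt b) {h : H} (ho : orderOf h = 7) (hC : Nat.card (centralizer ({h} : Set H)) ≤ 420) {w : H}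
    (hw : ¬ 5 ∣ orderOf w) (hwh : IsConj (w ^ 3) h) (hw0 : b w = 0) : b h = 0 := by
  have h5 : ¬ 5 ∣ orderOf h := by rw [ho]; norm_num
  have h1 := hb.congr h 7 (by norm_num) (by norm_num) h5
  rw [← ho, pow_orderOf_eq_one, hb.one, ho] at h1
  have h6 := hb.congr w 3 (by norm_num) (by norm_num) hw
  rw [hw0, hb.conj _ _ hwh] at h6
  have h2 := hb.le h5 hC
  rw [hb.sq_odd h5 (by rw [ho]; norm_num)] at h2
  obtain ⟨h3, h4⟩ := range h2 (m := 46) (by norm_num) (by norm_num)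
  generalize b h = v at *
  have h6 : v = 0 ∨ v = 21 ∨ v = -21 ∨ v = 42 ∨ v = -42 := by omega
  rcases h6 with rfl | rfl | rfl | rfl | rfl
  · rfl
  · norm_num at h2
  · norm_num at h2
  · norm_num at h2
  · norm_num at h2

theorem Bt.v14 (hb : Bt b) {h : H} (ho : orderOf h = 14) (hC : Nat.card (centralizer ({h} : Set H)) ≤ 28)
    (hA : b (h ^ 7) = 21) (h7 : b (h * h) = 0) : b h = 0 := by
  have h5 : ¬ 5 ∣ orderOf h := by rw [ho]; norm_num
  have h1 := hb.congr h 7 (by norm_num) (by norm_num) h5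
  rw [hA] at h1
  have h2 := hb.le h5 hC
  rw [h7] at h2
  obtain ⟨h3, h4⟩ := range h2 (m := 12) (by norm_num) (by norm_num)
  generalize b h = v at *
  have h6 : v = 0 ∨ v = 7 ∨ v = -7 := by omega
  rcases h6 with rfl | rfl | rfl
  · rfl
  · norm_num at h2
  · norm_num at h2

/-! ### 3-elements -/

/-- the class 3B, from the sum over a subgroup `3⁴` -/
theorem Bt.v3B (hb : Bt b) {h : H} (ho : orderOf h = 3) (hC : Nat.card (centralizer ({h} : Set H)) ≤ 29160)
    (hs : (81 : ℤ) ∣ 133 + 48 * 7 + 32 * b h) : b h = -2 := by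
  have h5 : ¬ 5 ∣ orderOf h := by rw [ho]; norm_num
  have h2 := hb.le h5 hC
  rw [hb.sq_odd h5 (by rw [ho]; norm_num)] at h2
  obtain ⟨h3, h4⟩ := range h2 (m := 382) (by norm_num) (by norm_num)
  generalize b h = v at *
  obtain ⟨k, hk⟩ : (81 : ℤ) ∣ v + 2 := by omega
  obtain rfl : v = 81 * k - 2 := by omega
  have h6 : -5 < k := by omega
  have h7 : k < 5 := by omega
  interval_cases k <;> first | (norm_num; done) | norm_num at h2

/-- the class 9A, from the sum over a subgroup `3 ≀ 3` -/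
theorem Bt.v9 (hb : Bt b) {h : H} (ho : orderOf h = 9) (hC : Nat.card (centralizer ({h} : Set H)) ≤ 27)
    (hs : (81 : ℤ) ∣ 133 + 18 * 7 + 26 * (-2) + 36 * b h) : b h = 1 := by
  have h5 : ¬ 5 ∣ orderOf h := by rw [ho]; norm_num
  have h2 := hb.le h5 hC
  rw [hb.sq_odd h5 (by rw [ho]; norm_num)] at h2
  obtain ⟨h3, h4⟩ := range h2 (m := 12) (by norm_num) (by norm_num)
  generalize b h = v at *
  have h6 : v = 1 ∨ v = 10 ∨ v = -8 := by omega
  rcases h6 with rfl | rfl | rfl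
  · rfl
  · norm_num at h2
  · norm_num at h2

/-! ### elements of order 6 and 12 -/

theorem Bt.v6A (hb : Bt b) {h : H} (ho : orderOf h = 6) (hC : Nat.card (centralizer ({h} : Set H)) ≤ 1440)
    (h3A : b (h * h) = 7) (hs : (9 : ℤ) ∣ 21 + 8 * b h) : b h = 3 := by
  have h5 : ¬ 5 ∣ orderOf h := by rw [ho]; norm_num
  have h1 := hb.congr h 2 (by norm_num) (by norm_num) h5
  rw [pow_two, h3A] at h1
  have h2 := hb.le h5 hC
  rw [h3A] at h2
  obtain ⟨h3, h4⟩ := range h2 (m := 85) (by norm_num) (by norm_num)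
  generalize b h = v at *
  obtain ⟨k, hk⟩ : (18 : ℤ) ∣ v - 3 := by omega
  obtain rfl : v = 18 * k + 3 := by omega
  have h6 : -5 < k := by omega
  have h7 : k < 5 := by omega
  interval_cases k <;> first | (norm_num; done) | norm_num at h2

theorem Bt.v6B (hb : Bt b) {h : H} (ho : orderOf h = 6) (hC : Nat.card (centralizer ({h} : Set H)) ≤ 576)
    (h3A : b (h * h) = 7) (h2B : b (h ^ 3) = 5) (hs : (8 : ℤ) ∣ 7 + 7 * b h) : b h = -1 := by
  have h5 : ¬ 5 ∣ orderOf h := by rw [ho]; norm_num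
  have h1 := hb.congr h 3 (by norm_num) (by norm_num) h5
  rw [h2B] at h1
  have h2 := hb.le h5 hC
  rw [h3A] at h2
  obtain ⟨h3, h4⟩ := range h2 (m := 54) (by norm_num) (by norm_num)
  generalize b h = v at *
  obtain ⟨k, hk⟩ : (24 : ℤ) ∣ v + 1 := by omega
  obtain rfl : v = 24 * k - 1 := by omega
  have h6 : -4 < k := by omega
  have h7 : k < 4 := by omega
  interval_cases k <;> first | (norm_num; done) | norm_num at h2

theorem Bt.v6C (hb : Bt b) {h : H} (ho : orderOf h = 6) (hC : Nat.card (centralizer ({h} : Set H)) ≤ 360)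
    (h3B : b (h * h) = -2) (hs : (9 : ℤ) ∣ 5 + 4 * (-1) + 4 * b h) : b h = 2 := by
  have h5 : ¬ 5 ∣ orderOf h := by rw [ho]; norm_num
  have h1 := hb.congr h 2 (by norm_num) (by norm_num) h5
  rw [pow_two, h3B] at h1
  have h2 := hb.le h5 hC
  rw [h3B] at h2
  obtain ⟨h3, h4⟩ := range h2 (m := 43) (by norm_num) (by norm_num)
  generalize b h = v at *
  obtain ⟨k, hk⟩ : (18 : ℤ) ∣ v - 2 := by omega
  obtain rfl : v = 18 * k + 2 := by omega
  have h6 : -4 < k := by omega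
  have h7 : k < 4 := by omega
  interval_cases k <;> first | (norm_num; done) | norm_num at h2

theorem Bt.v12A (hb : Bt b) {h : H} (ho : orderOf h = 12) (hC : Nat.card (centralizer ({h} : Set H)) ≤ 72)
    (h6A : b (h * h) = 3) (h4B : b (h ^ 3) = 1) (hs : (8 : ℤ) ∣ 7 + 5 * 3 + 2 * b h) : b h = 1 := by
  have h5 : ¬ 5 ∣ orderOf h := by rw [ho]; norm_num
  have h1 := hb.congr h 3 (by norm_num) (by norm_num) h5
  rw [h4B] at h1
  have h2 := hb.le h5 hC
  rw [h6A] at h2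
  obtain ⟨h3, h4⟩ := range h2 (m := 19) (by norm_num) (by norm_num)
  generalize b h = v at *
  have h6 : v = 1 ∨ v = 13 ∨ v = -11 := by omega
  rcases h6 with rfl | rfl | rfl
  · rfl
  · norm_num at h2
  · norm_num at h2

theorem Bt.v12B (hb : Bt b) {h : H} (ho : orderOf h = 12) (hC : Nat.card (centralizer ({h} : Set H)) ≤ 48)
    (h6B : b (h * h) = -1) (h4A : b (h ^ 3) = 5) (hs : (8 : ℤ) ∣ 7 + -1 + 6 * b h) : b h = -1 := by
  have h5 : ¬ 5 ∣ orderOf h := by rw [ho]; norm_num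
  have h1 := hb.congr h 3 (by norm_num) (by norm_num) h5
  rw [h4A] at h1
  have h2 := hb.le h5 hC
  rw [h6B] at h2
  obtain ⟨h3, h4⟩ := range h2 (m := 16) (by norm_num) (by norm_num)
  generalize b h = v at *
  have h6 : v = -1 ∨ v = 11 ∨ v = -13 := by omega
  rcases h6 with rfl | rfl | rfl
  · rfl
  · norm_num at h2
  · norm_num at h2

theorem Bt.v12C (hb : Bt b) {h : H} (ho : orderOf h = 12) (hC : Nat.card (centralizer ({h} : Set H)) ≤ 12)
    (h6C : b (h * h) = 2) (h4C : b (h ^ 3) = -3) : b h = 0 := by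
  have h5 : ¬ 5 ∣ orderOf h := by rw [ho]; norm_num
  have h1 := hb.congr h 3 (by norm_num) (by norm_num) h5
  rw [h4C] at h1
  have h0 := hb.congr h 2 (by norm_num) (by norm_num) h5
  rw [pow_two, h6C] at h0
  have h2 := hb.le h5 hC
  rw [h6C] at h2
  obtain ⟨h3, h4⟩ := range h2 (m := 8) (by norm_num) (by norm_num)
  generalize b h = v at *
  have h6 : v = 0 ∨ v = 6 ∨ v = -6 := by omega
  rcases h6 with rfl | rfl | rfl
  · rfl
  · norm_num at h2
  · norm_num at h2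

/-- the value 7 decides between the two classes of elements of order 3 -/
theorem three_A {a c : ℤ} (h0 : (9 : ℤ) ∣ 133 + 8 * a) (h1 : (81 : ℤ) ∣ 133 + 48 * a + 32 * c) : c ≠ 7 := by
  rintro rfl
  omega

end Cfsg.Agent.H616.M23
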