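import Cfsg.Agent.H616.M23.Val
import Cfsg.Agent.H616.M23.SymChi
import Cfsg.Agent.H66.M23.Loc

/-!
# (M,23) of S4929, [BETA]: the values `chi (u s)` (helper616)

`beta_values` : `u` of order 5, `C(u) = ⟨u⟩ × T`, `e : T ≃* HN`; then `chi (u s) = (ty (e s)).b` for `s` in `T` of order prime to 5.
-/

set_option autoImplicit false
set_option maxRecDepth 100000

namespace Cfsg.Agent.H616.M23

open Cfsg Cfsg.Agent.MonsterX.InstData Cfsg.Agent.H651.HNF
open Cfsg.Agent.H875.M23.TraceChar (chi)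

/-- **The values of `chi` on the section of `5A`.** -/
theorem beta_values {u : ↥M.G} {T : Subgroup ↥M.G} (hu : orderOf u = 5)
    (hle : T ≤ Subgroup.centralizer ({u} : Set ↥M.G))
    (hsplit : ∀ c ∈ Subgroup.centralizer ({u} : Set ↥M.G), ∃ i : ℕ, ∃ t ∈ T, c = u ^ i * t)
    (hVu : chi u = 133) {H : Type} [Group H] [Finite H] (e : T ≃* H) {ty : H → Ty} (hT : Table H ty)
    (W : ∀ b : H → ℤ, (∀ s : T, chi (u * (s : ↥M.G)) = b (e s)) → Words b)
    (S : ∀ b : H → ℤ, Bt b → Words b → Sums ty b) :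
    ∀ s : T, ty (e s) ≠ .sing → chi (u * (s : ↥M.G)) = ((ty (e s)).b : ℂ) := by
  obtain ⟨b, hb, hbt⟩ := exists_bt_chi hu hle hsplit hVu e.symm
  have h1 : ∀ s : T, chi (u * (s : ↥M.G)) = b (e s) := by
    intro s
    have h2 := hb (e s)
    rw [e.symm_apply_apply] at h2
    exact h2
  intro s hs
  rw [h1 s, val hT hbt (W b h1) (S b hbt (W b h1)) hs]

/-- the same with the local structure of helper66 -/
theorem beta_values_dp {u : ↥M.G} {T : Subgroup ↥M.G} (h : H66.M23.Loc.DP Spor.HN 5 u T)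
    (hVu : chi u = 133) (e : T ≃* Spor.HN) {ty : Spor.HN → Ty} (hT : Table Spor.HN ty)
    (W : ∀ b : Spor.HN → ℤ, (∀ s : T, chi (u * (s : ↥M.G)) = b (e s)) → Words b)
    (S : ∀ b : Spor.HN → ℤ, Bt b → Words b → Sums ty b) :
    ∀ s : T, ty (e s) ≠ .sing → chi (u * (s : ↥M.G)) = ((ty (e s)).b : ℂ) :=
  beta_values h.ord h.le h.split hVu e hT W S

end Cfsg.Agent.H616.M23
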