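import Cfsg.Agent.H136.M23.BZ

/-!
# (M,23) of S4929: helper66's local data at the element `W [37, 37]` (helper616)

Adapted from helper66's `Five.local_five`, for a given pair `x`, `T`.
-/

set_option autoImplicit false
set_option maxRecDepth 100000

namespace Cfsg.Agent.H616.M23.LocalXu

open Cfsg Cfsg.Agent.H241.Mon Cfsg.Agent.MonsterX.MainBasic
open Cfsg.Agent.MonsterX Cfsg.Agent.MonsterX.InstData Cfsg.Agent.MonsterU
open Subgroup (centralizer zpowers mem_centralizer_singleton_iff)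
open Cfsg.Agent.MonsterX.Conc Cfsg.Agent.MonsterX.ConcGrp
open Cfsg.Agent.H66.M23.Loc Cfsg.Agent.H66.M23.Five Cfsg.Agent.H136.M23.BMon
open Cfsg.Agent.LThreeMB (fr XX KChart.pi)
open Cfsg.Agent.BpSpor.MBigModel (MG card_cent_z card_cent_t)

/-- **The local structure of the class 5A**, at `x`. -/
theorem local_of {x : centralizer ({zz} : Set Gam)} (hx : orderOf x = 5)
    (hN : ((x : Gam) : Space.V ≃ₗ[ℚ] Space.V) ∈ Conc.N)
    (hr : ∀ n : ℕ, n % 5 ≠ 0 → ∃ c : Gam, c * (x : Gam) * c⁻¹ = (x : Gam) ^ n)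
    {T : Subgroup Gam} (hT : DP Spor.HN 5 (x : Gam) T) : ∃ (C : Subgroup Gam) (t y : T), Local (x : Gam) C T t y := by
  have hfin : Finite Gam := inferInstance
  have hfinHN : Finite Spor.HN := Nat.finite_of_card_ne_zero (by rw [Cfsg.Agent.S2056.card_HN]; norm_num)
  obtain ⟨e⟩ := hT.iso
  obtain ⟨u0, t0, hu0, hpu0, hta0, hut0⟩ := exists_base
  have hx5 : x ^ 5 = 1 := by rw [← hx, pow_orderOf_eq_one]
  obtain ⟨c, hc⟩ := H136.M23.BZ.exists_xx hx hN
  obtain ⟨d, hd⟩ := MFive.exists_conj_of_conj chart Nat.prime_five (by decide) hx5 (y := u0)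
    (by rw [← hu0, pow_orderOf_eq_one]) (s := KChart.pi MFive.Row.hc c)
    (by rw [← map_mul, ← map_inv, ← map_mul, hc]; exact hpu0.symm)
  have hd' : (d : Gam) * (x : Gam) * (d : Gam)⁻¹ = (u0 : Gam) := congrArg Subtype.val hd
  have hcardT : Nat.card T = 273030912000000 := by rw [Nat.card_congr e.toEquiv, Cfsg.Agent.S2056.card_HN]
  -- the involution `t`
  let t : Gam := (d : Gam)⁻¹ * t0 * (d : Gam)
  have hta : LThreeB.Row.TA t := by
    exact IsConj.trans (b := t0) hta0 (isConj_iff.2 ⟨(d : Gam)⁻¹, by rw [inv_inv]⟩)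
  have hut : (x : Gam) * t = t * x := by
    have h1 : (x : Gam) = (d : Gam)⁻¹ * (u0 : Gam) * (d : Gam) := by rw [← hd']; group
    show (x : Gam) * ((d : Gam)⁻¹ * t0 * (d : Gam)) = (d : Gam)⁻¹ * t0 * (d : Gam) * x
    calc (x : Gam) * ((d : Gam)⁻¹ * t0 * (d : Gam)) = (d : Gam)⁻¹ * ((u0 : Gam) * t0) * (d : Gam) := by
          rw [h1]; group
      _ = (d : Gam)⁻¹ * (t0 * (u0 : Gam)) * (d : Gam) := by rw [hut0]
      _ = _ := by rw [h1]; group
  have ht2 : orderOf t = 2 := LThreeB.Final.orderOf_of_TA hta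
  have htt : t ^ 2 = 1 := by rw [← ht2, pow_orderOf_eq_one]
  have htT : t ∈ T := H66.M23.Five.DP.mem_of_pow Nat.prime_five hT htt (by norm_num) hut.symm
  let t' : T := ⟨t, htT⟩
  obtain ⟨z', hz'z, hz', hcz⟩ := H136.M23.BZ.card_cz hx hN hT
  have ht' : orderOf t' = 2 := by rw [← ht2]; exact Subgroup.orderOf_mk t _
  have hct := card_cent_t hta
  -- `z` is not conjugate to `t`
  have hnz : ¬ IsConj t (z' : Gam) := by
    intro h
    rw [hz'z] at h
    have h1 := card_cent_isConj h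
    rw [hct, card_cent_z] at h1
    norm_num at h1
  have hcT : Nat.card (centralizer ({t'} : Set T)) = 177408000 := by
    rcases two_conj e ht' with ⟨-, h⟩ | ⟨-, h⟩
    · exact h
    · exfalso
      apply hnz
      obtain ⟨c, hc⟩ := isConj_iff.1 (isConj_of_card e ht' hz' (by rw [h, hcz]))
      exact isConj_iff.2 ⟨c, congrArg Subtype.val hc⟩
  have hfus : ∀ s : T, IsConj (t' : Gam) (s : Gam) ↔ IsConj t' s := by
    intro s
    constructor
    · intro h
      have hso : orderOf s = 2 := by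
        rw [← ht2, ← Subgroup.orderOf_coe]
        obtain ⟨c, hc⟩ := isConj_iff.1 h
        rw [← hc]
        exact MulEquiv.orderOf_eq (MulAut.conj c) t
      rcases two_conj e hso with ⟨-, h1⟩ | ⟨-, h1⟩
      · exact isConj_of_card e ht' hso (by rw [hcT, h1])
      · exfalso
        apply hnz
        obtain ⟨c, hc⟩ := isConj_iff.1 (isConj_of_card e hso hz' (by rw [h1, hcz]))
        exact h.trans (isConj_iff.2 ⟨c, congrArg Subtype.val hc⟩)
    · intro h
      obtain ⟨c, hc⟩ := isConj_iff.1 h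
      exact isConj_iff.2 ⟨c, congrArg Subtype.val hc⟩
  have : Fact (Nat.Prime 11) := ⟨by norm_num⟩
  obtain ⟨y, hy⟩ := exists_prime_orderOf_dvd_card' 11 (show 11 ∣ Nat.card (centralizer ({t'} : Set T)) by
    rw [hcT]; norm_num)
  refine ⟨centralizer ({(x : Gam)} : Set Gam), t', (y : T), ?_⟩
  refine ⟨⟨e⟩, hT.ord, rfl, hT.le, hT.card, hT.not_mem, ?_, ?_, hcardT, ht', hta, ?_, hcT, hfus, ?_, ?_, ?_, ?_⟩
  · intro k hk
    exact hr k (by omega)
  · intro g hg t ht
    have h1 : g * (x : Gam) * g⁻¹ ∈ zpowers (x : Gam) :=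
      (Subgroup.mem_normalizer_iff.1 hg (x : Gam)).1 (Subgroup.mem_zpowers _)
    obtain ⟨k, hk⟩ := Subgroup.mem_zpowers_iff.1 h1
    exact hT.conj_mem Nat.prime_five hk.symm t ht
  · rw [show ((t' : T) : Gam) = t from rfl, hct]
  · intro s hs
    rw [hfus s]
    constructor
    · intro h
      rw [← hcT]
      exact (card_cent_isConj h).symm
    · intro h
      exact isConj_of_card e ht' hs (by rw [hcT, h])
  · rw [Nat.card_congr (Equiv.subtypeEquivRight hfus)]
    have h1 := Cfsg.Agent.SmallSimple.Simple168.card_isConj_mul_card_centralizer t'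
    rw [hcT, hcardT] at h1
    omega
  · rw [Subgroup.orderOf_coe, hy]
  · exact (mem_centralizer_singleton_iff.1 y.2).symm

/-- at `xu` -/
theorem local_xu {T : Subgroup Gam} (hT : DP Spor.HN 5 (H136.M23.BWords.xu : Gam) T) :
    ∃ (C : Subgroup Gam) (t y : T), Local (H136.M23.BWords.xu : Gam) C T t y :=
  local_of H136.M23.BWords.orderOf_xu H136.M23.BWords.xu_mem H136.M23.BWords.xu_rat hT

end Cfsg.Agent.H616.M23.LocalXu
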